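import Cfsg.Agent.H217.Odm.Eng
import Cfsg.Agent.H729.OddAFour
import Cfsg.Agent.H713.Spor.Fi22
import Cfsg.Agent.NotCT.Orders

/-!
# TEAM ODDM (S4785): `Fi22` (helper729)
-/

set_option autoImplicit false

namespace Cfsg.Agent.H729.OdmRowFi22

open Cfsg Subgroup Cfsg.Agent.OrdDiv Cfsg.Agent.H453.OddM Cfsg.Agent.H217.Odm Cfsg.Agent.H257.El
open Cfsg.Agent.H729.OddAFour Cfsg.Spor.Fi22

universe u

/-- the generators -/
abbrev s (x : Gen) : Spor.Fi22 := PresentedGroup.of x

theorem sq (x : Gen) : s x * s x = 1 := lab1 x (by cases x <;> decide) (by cases x <;> decide)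

theorem lb (x y : Gen) (n : ℕ) (hl : Spor.coxLabel edges x y = n) : (s x * s y) ^ n = 1 :=
  lab x y (by cases x <;> decide) (by cases y <;> decide) hl

/-- equality spreads along an edge -/
theorem spread {x y z : Gen} (h : s x = s y) (h3 : Spor.coxLabel edges y z = 3) (h2 : Spor.coxLabel edges x z = 2) :
    s y = s z := by
  refine eq_of_comm (sq y) (sq z) (lb y z 3 h3) ?_
  rw [← h]
  exact comm (sq x) (sq z) (lb x z 2 h2)

theorem ne_ab : s .a ≠ s .b := by
  intro h
  have e1 : s .b = s .c := spread h (by decide) (by decide)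
  have e2 : s .c = s .d := spread e1 (by decide) (by decide)
  have e3 : s .d = s .e := spread e2 (by decide) (by decide)
  have e4 : s .e = s .f := spread e3 (by decide) (by decide)
  have e5 : s .f = s .g := spread e4 (by decide) (by decide)
  have e6 : s .d = s .h := spread e2 (by decide) (by decide)
  have e7 : s .h = s .i := spread e6 (by decide) (by decide)
  have hall : ∀ x : Gen, s x = s .a := by
    intro x
    cases x <;> simp only [← e7, ← e6, ← e5, ← e4, ← e3, ← e2, ← e1, ← h]
  have htop : (⊤ : Subgroup Spor.Fi22) ≤ zpowers (s .a) := by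
    rw [← PresentedGroup.closure_range_of, closure_le]
    rintro _ ⟨x, rfl⟩
    have := hall x
    change s x ∈ zpowers (s .a)
    rw [this]
    exact mem_zpowers _
  have h1 : Nat.card (⊤ : Subgroup Spor.Fi22) ∣ Nat.card (zpowers (s .a)) := Subgroup.card_dvd_of_le htop
  rw [Subgroup.card_top, NotCT.Orders.fi22 ⟨MulEquiv.refl _⟩, Nat.card_zpowers] at h1
  have h2 : orderOf (s .a) ∣ 2 := orderOf_dvd_of_pow_eq_one (by rw [pow_two]; exact sq .a)
  have h3 := Nat.le_of_dvd (by norm_num) (h1.trans h2)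
  norm_num at h3

theorem realP_five_model : RealP Spor.Fi22 5 :=
  OddAFour.realP_five (sq .a) (sq .b) (sq .c) (sq .d) (lb .a .b 3 (by decide)) (lb .b .c 3 (by decide))
    (lb .c .d 3 (by decide)) (lb .a .c 2 (by decide)) (lb .a .d 2 (by decide)) (lb .b .d 2 (by decide)) ne_ab

theorem RealP.congr {T S : Type*} [Group T] [Group S] (e : T ≃* S) {v : ℕ} (h : RealP T v) : RealP S v := by
  obtain ⟨x, hx, hr⟩ := h
  exact ⟨e x, by rw [MulEquiv.orderOf_eq, hx], hr.map e.toMonoidHom⟩

/-- **`Fi22`** -/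
theorem row (tab : OrderTable.{u}) (known : Known.{u}) {T : Type u} [Group T] (h : Spor.IsoFi22 T) : Row T := by
  have hc := NotCT.Orders.fi22 h
  have hfin : Finite T := Nat.finite_of_card_ne_zero (by rw [hc]; norm_num)
  obtain ⟨e⟩ := h
  have h13 : ∀ x : T, orderOf x = 13 → Nat.card (centralizer ({x} : Set T)) = 13 := fun x hx =>
    Cfsg.Agent.H713.Spor.Fi22.cent_13 e hx
  have hN : ∀ x : T, orderOf x = 13 →
      Nat.card (normalizer ((zpowers x : Subgroup T) : Set T)) = 13 * 6 ∧ IsReal x := by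
    intro x hx
    obtain ⟨h1, h2⟩ := norm_of_cent (r := 13) (n := 4966288588800) (c := 1) (e := 6) (by norm_num)
      (by rw [hc]) (by norm_num) hx (by rw [h13 x hx]) (by norm_num) (by norm_num)
    exact ⟨by rw [h1], h2 (by decide)⟩
  have : Fact (Nat.Prime 13) := ⟨by norm_num⟩
  obtain ⟨x₀, hx₀⟩ := exists_prime_orderOf_dvd_card' (G := T) 13 (by rw [hc]; norm_num)
  refine row_of_two tab known (r := 13) (nu := 6) (ss := [5])
    (l := [(2, 17), (3, 9), (5, 2), (7, 1), (11, 1), (13, 1)]) hc (by norm_num) ⟨x₀, hx₀, (hN x₀ hx₀).2⟩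
    (fun x hx => (hN x hx).1) ?_ (by decide +kernel)
  intro t ht
  rw [List.mem_singleton] at ht
  subst ht
  exact ⟨by norm_num, RealP.congr e.symm realP_five_model,
    noOrd_of_cent (by norm_num) h13 (by norm_num) (by norm_num)⟩

end Cfsg.Agent.H729.OdmRowFi22
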