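import Cfsg.Agent.H729.PairBase
import Cfsg.Agent.CpAutTits.Row

/-!
# The Tits group satisfies `PairN`

`a` of order 5, `t a t⁻¹ = a²`; the centralizer of an element of order 5 has order 50, so that no element of order 4
commutes with an element of order 5.
-/

set_option autoImplicit false

namespace Cfsg.Agent.H729.PairTits

open Subgroup Cfsg Cfsg.Agent.H729.PairBase

universe u

/-- An element `t` with `t a t⁻¹ = a²`, `|a| = 5`, and centralizers of elements of order 5 not divisible by 4. -/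
theorem pair_of_sq {S : Type*} [Group S] [Finite S] {a t : S} (ha : orderOf a = 5)
    (ht : ∀ m : ℕ, t ^ m * a * (t ^ m)⁻¹ = a ^ (2 ^ m))
    (hC : ∀ y : S, orderOf y = 5 → ¬ 4 ∣ Nat.card ↥(centralizer ({y} : Set S))) : PairN S := by
  have h0 : orderOf t ≠ 0 := (orderOf_pos t).ne'
  obtain ⟨k, m, hm, hk⟩ := Nat.exists_eq_two_pow_mul_odd h0
  have hy : orderOf (t ^ m) = 2 ^ k := by
    rw [orderOf_pow, hk, Nat.gcd_eq_right (Dvd.intro_left _ rfl)]
    exact Nat.mul_div_cancel _ hm.pos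
  have hy2 : (t ^ m) ^ 2 ≠ 1 := by
    intro h1
    have h2 := ht (m * 2)
    rw [pow_mul, h1] at h2
    have h3 : a ^ 1 = a ^ (2 ^ (m * 2)) := by
      rw [pow_one, ← h2]
      group
    rw [pow_inj_mod, ha] at h3
    obtain ⟨j, rfl⟩ := hm
    have h4 : 2 ^ ((2 * j + 1) * 2) % 5 = 4 := by
      rw [show (2 * j + 1) * 2 = 4 * j + 2 by ring, pow_add, pow_mul, Nat.mul_mod, Nat.pow_mod]
      norm_num
    omega
  have hk2 : 2 ≤ k := by
    by_contra hlt
    have h1 : k ≤ 1 := by omega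
    apply hy2
    apply orderOf_dvd_iff_pow_eq_one.1
    rw [hy]
    exact pow_dvd_pow 2 h1
  refine ⟨5, a, t ^ m, by norm_num, by norm_num, ?_, ?_, ⟨1, by rw [ha, pow_one]⟩, ⟨k, hy⟩, ?_, ?_⟩
  · rintro rfl
    rw [orderOf_one] at ha
    omega
  · intro h1
    rw [h1] at hy2
    exact hy2 (one_pow 2)
  · rw [Subgroup.mem_normalizer_iff]
    have key : ∀ n : ℕ, ∀ g : S, g ∈ zpowers a → t ^ n * g * (t ^ n)⁻¹ ∈ zpowers a := by
      intro n g hg
      obtain ⟨i, rfl⟩ := mem_zpowers_iff.1 hg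
      rw [← conj_zpow, ht]
      exact zpow_mem (pow_mem (mem_zpowers a) _) i
    intro g
    refine ⟨key m g, fun h => ?_⟩
    -- the inverse of `t ^ m` is a power of `t`
    have h5 : (t ^ m)⁻¹ = t ^ (m * (orderOf t - 1)) := by
      apply inv_eq_of_mul_eq_one_right
      rw [← pow_add]
      have h6 : m + m * (orderOf t - 1) = orderOf t * m := by
        have := orderOf_pos t
        obtain ⟨j, hj⟩ : ∃ j, orderOf t = j + 1 := ⟨orderOf t - 1, by omega⟩
        rw [hj]
        simp only [Nat.add_sub_cancel]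
        ring
      rw [h6, pow_mul, pow_orderOf_eq_one, one_pow]
    have h7 := key (m * (orderOf t - 1)) _ h
    rw [← h5, inv_inv] at h7
    have h8 : (t ^ m)⁻¹ * (t ^ m * g * (t ^ m)⁻¹) * t ^ m = g := by group
    rwa [h8] at h7
  · intro f hf
    have hfy : orderOf (f (t ^ m)) = 2 ^ k := by
      rw [← hy]
      exact orderOf_injective f.toMonoidHom f.injective _
    apply hC a ha
    have h1 : f (t ^ m) ∈ centralizer ({a} : Set S) := mem_centralizer_singleton_iff.2 hf.eq.symm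
    have h2 : orderOf (⟨f (t ^ m), h1⟩ : ↥(centralizer ({a} : Set S))) ∣ Nat.card ↥(centralizer ({a} : Set S)) :=
      orderOf_dvd_natCard _
    rw [Subgroup.orderOf_mk, hfy] at h2
    exact dvd_trans (pow_dvd_pow 2 hk2) h2

section

open Cfsg.Agent.Omega.TwoF.Tits Cfsg.Agent.Omega.TwoF.Scalar Cfsg.Agent.Omega.TwoF.Orb
  Cfsg.Agent.ChevalleyStructure.Tits.Main

theorem pair_C (h : CpAutTits.Row.Out C) : PairN C := by
  have hfin : Finite C := Nat.finite_of_card_ne_zero (by rw [h.card]; norm_num)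
  have ha : a ≠ 1 := by
    intro h1
    have h2 := (two.eq_iff 1 0 0 0).1 (by rw [h1]; simp)
    simp at h2
  refine pair_of_sq (a := a) (t := t) (orderOf_eq_prime (hp := ⟨by norm_num⟩) a5 ha) CpAutTits.Fus.conj_t ?_
  intro y hy
  rw [h.cent y hy]
  norm_num

theorem pair_X {X : Type*} [Group X] (h : CpAutTits.Row.Out X) (e : C ≃* X) : PairN X := by
  have h1 : CpAutTits.Row.Out C := CpAutTits.Row.Out.congr h e.symm
  have h2 := pair_C h1
  exact PairN.congr (S := C) e h2

end

theorem pair_aux {X : Type u} [Group X] (h : CpAutTits.Row.Out X)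
    (K : Subgroup (Matrix.GeneralLinearGroup Cfsg.Agent.ChevalleyStructure.Tits.Mat.I52 (ZMod 2)))
    (hK : K = Cfsg.Agent.ChevalleyStructure.Tits.Order.H0)
    (e : Nonempty (↥(_root_.commutator K) ≃* X)) : PairN X := by
  subst hK
  obtain ⟨e⟩ := e
  exact pair_X h e

/-- The Tits group. -/
theorem tits {X : Type u} [Group X] (h : Lie.IsoTits X) : PairN X := by
  obtain ⟨e⟩ := h
  exact pair_aux (CpAutTits.Row.out ⟨e⟩) (Cfsg.Lie.twistedF4 (ZMod 2) 1)
    Cfsg.Agent.ChevalleyStructure.Tits.Main.T0_eq_H0 ⟨e.symm⟩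

end Cfsg.Agent.H729.PairTits
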